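import Mathlib
import Cfsg.Prelude
import Cfsg.Agent.Helper29.GU.S4723
import Cfsg.Agent.Helper29.AutTransport
import Cfsg.Agent.S0363
import Cfsg.Agent.S0366
import Cfsg.Agent.S0369

set_option autoImplicit false

/-! Every Steiner system S(4,7,23) is isomorphic to the residual of the octads at a point. -/

namespace Cfsg.Agent.Helper29.GU

open Cfsg.Agent.Helper2.Steiner Cfsg.Agent.Helper29.S3622U

variable {α : Type*} [Fintype α] [DecidableEq α]

/-- the blocks of the model S(4,7,23): the octads through `none`, with that point removed -/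
def M23sys : Set (Finset (ZMod 23)) := {c | Finset.insertNone c ∈ Cfsg.octads}

theorem mem_M23sys {c : Finset (ZMod 23)} : c ∈ M23sys ↔ Finset.insertNone c ∈ Cfsg.octads :=
  Iff.rfl

theorem card_M23sys_le : M23sys.ncard ≤ 253 := by
  have hS := Cfsg.Agent.S0363.result
  have h := lambda_count hS ({none} : Finset Cfsg.GolayPt) (by simp)
  have hc : Fintype.card Cfsg.GolayPt = 24 := by simp [ZMod.card]
  rw [hc] at h
  have c0 : Nat.choose 23 4 = 8855 := by decide
  have d0 : Nat.choose 7 4 = 35 := by decide
  simp only [Finset.card_singleton, Nat.reduceSub] at h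
  rw [c0, d0] at h
  have h253 : ((blocks Cfsg.octads).filter (fun c => ({none} : Finset Cfsg.GolayPt) ⊆ c)).card
      = 253 := by omega
  have hinj : Function.Injective (fun c : Finset (ZMod 23) => Finset.insertNone c) :=
    Finset.insertNone.injective
  rw [← Set.ncard_image_of_injective _ hinj, ← h253, ← Set.ncard_coe_finset]
  apply Set.ncard_le_ncard
  · rintro _ ⟨c, hc, rfl⟩
    rw [Finset.mem_coe, Finset.mem_filter, mem_blocks]
    refine ⟨hc, ?_⟩
    rw [Finset.singleton_subset_iff]
    exact Finset.none_mem_insertNone
  · exact Finset.finite_toSet _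

theorem card_blocks_4723 (hα : Fintype.card α = 23) {B : Set (Finset α)}
    (hB : Cfsg.IsSteinerSystem 4 7 B) : B.ncard = 253 := by
  rw [ncard_eq]
  have h := lambda_count hB ∅ (by simp)
  have e : (blocks B).filter (fun c => (∅ : Finset α) ⊆ c) = blocks B := by
    apply Finset.filter_true_of_mem
    intro c _
    exact Finset.empty_subset c
  rw [e, hα] at h
  have c0 : Nat.choose 23 4 = 8855 := by decide
  have d0 : Nat.choose 7 4 = 35 := by decide
  simp only [Finset.card_empty, Nat.sub_zero] at h
  rw [c0, d0] at h
  omega

omit [Fintype α] [DecidableEq α] in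
/-- a bijection of `Option`s fixing `none` acts on `insertNone` sets through `removeNone` -/
theorem image_insertNone {β : Type*} [DecidableEq β] (e2 : Option α ≃ Option β)
    (h0 : e2 none = none) (b : Finset α) [DecidableEq (Option β)] :
    (Finset.insertNone b).image e2 = Finset.insertNone (b.image e2.removeNone) := by
  have hsome : ∀ a, e2 (some a) = some (e2.removeNone a) := by
    intro a
    have hne : e2 (some a) ≠ none := by
      intro h
      rw [← h0] at h
      exact Option.some_ne_none a (e2.injective h)
    obtain ⟨x', hx'⟩ := Option.ne_none_iff_exists'.1 hne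
    exact (Equiv.removeNone_some e2 ⟨x', hx'⟩).symm
  ext x
  rw [Finset.mem_image]
  rcases x with _ | z
  · constructor
    · intro _
      exact Finset.none_mem_insertNone
    · intro _
      exact ⟨none, Finset.none_mem_insertNone, h0⟩
  · rw [Finset.some_mem_insertNone, Finset.mem_image]
    constructor
    · rintro ⟨y, hy, hyz⟩
      rcases y with _ | a
      · rw [h0] at hyz
        exact absurd hyz (Option.some_ne_none z).symm
      · rw [hsome] at hyz
        exact ⟨a, Finset.some_mem_insertNone.1 hy, Option.some_injective _ hyz⟩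
    · rintro ⟨a, ha, haz⟩
      refine ⟨some a, Finset.some_mem_insertNone.2 ha, ?_⟩
      rw [hsome, haz]

theorem exists_M24_to_none (p : Cfsg.GolayPt) :
    ∃ τ ∈ Cfsg.setSystemAut Cfsg.octads, τ p = none := by
  have := Cfsg.Agent.S0366.result
  have hc : Nat.card Cfsg.GolayPt = 24 := by
    rw [Nat.card_eq_fintype_card]
    simp [ZMod.card]
  have : MulAction.IsMultiplyPretransitive Cfsg.M24 Cfsg.GolayPt 1 :=
    MulAction.isMultiplyPretransitive_of_le (n := 5) (by norm_num) (by rw [hc]; norm_num)
  have : MulAction.IsPretransitive Cfsg.M24 Cfsg.GolayPt :=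
    MulAction.is_one_pretransitive_iff.1 inferInstance
  obtain ⟨g, hg⟩ := MulAction.exists_smul_eq Cfsg.M24 p (none : Cfsg.GolayPt)
  refine ⟨g.1, ?_, hg⟩
  rw [← Cfsg.Agent.S0369.result]
  exact g.2

theorem iso_M23sys (hα : Fintype.card α = 23) {B : Set (Finset α)}
    (hB : Cfsg.IsSteinerSystem 4 7 B) : Cfsg.SetSystemIso B M23sys := by
  obtain ⟨e, he⟩ := gol_unique (isGol_codeExt hα hB) isGol_golay
  have h3 : ∀ b ∈ B, (Finset.insertNone b).image e ∈ Cfsg.octads := by
    intro b hb
    refine ⟨⟨ind ((Finset.insertNone b).image e), ?_, ?_⟩, ?_⟩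
    · rw [SetLike.mem_coe, he]
      have : ind ((Finset.insertNone b).image e) ∘ e = ind (Finset.insertNone b) := by
        funext i
        simp only [Function.comp_apply, ind]
        by_cases hi : i ∈ Finset.insertNone b
        · rw [if_pos hi, if_pos (Finset.mem_image_of_mem e hi)]
        · rw [if_neg hi, if_neg]
          intro hm
          obtain ⟨j, hj, hji⟩ := Finset.mem_image.1 hm
          exact hi (e.injective hji ▸ hj)
      rw [this]
      exact Submodule.subset_span ⟨b, hb, rfl⟩
    · exact supp_ind _
    · show ((Finset.insertNone b).image e).card = 8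
      rw [Finset.card_image_of_injective _ e.injective, Finset.card_insertNone, hB.1 b hb]
  obtain ⟨τ, hτ, hτp⟩ := exists_M24_to_none (e none)
  set e2 : Option α ≃ Option (ZMod 23) := e.trans τ with he2
  have h0 : e2 none = none := hτp
  refine ⟨e2.removeNone, ?_⟩
  have hsub : (fun b => b.image e2.removeNone) '' B ⊆ M23sys := by
    rintro _ ⟨b, hb, rfl⟩
    show Finset.insertNone (b.image e2.removeNone) ∈ Cfsg.octads
    rw [← image_insertNone e2 h0 b]
    have := aut_image hτ (h3 b hb)
    rw [Finset.image_image] at this
    exact this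
  apply Set.eq_of_subset_of_ncard_le hsub
  rw [Set.ncard_image_of_injective _ (Finset.image_injective e2.removeNone.injective),
    card_blocks_4723 hα hB]
  exact card_M23sys_le

end Cfsg.Agent.Helper29.GU
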