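import Mathlib
import Cfsg.Prelude
import Cfsg.Agent.Helper29.GU.S4723Iso

set_option autoImplicit false

/-! The automorphism group of the model S(4,7,23) is the point stabiliser of M24. -/

namespace Cfsg.Agent.Helper29.GU

open Cfsg.Agent.Helper2.Steiner Cfsg.Agent.Helper29.S3622U

theorem steiner_M23sys : Cfsg.IsSteinerSystem 4 7 M23sys := by
  have hS := Cfsg.Agent.S0363.result
  refine ⟨?_, ?_⟩
  · intro c hc
    have := hS.1 _ hc
    rw [Finset.card_insertNone] at this
    omega
  · intro s hs
    have h5 : (Finset.insertNone s).card = 5 := by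
      rw [Finset.card_insertNone, hs]
    obtain ⟨O, ⟨hO, hsO⟩, huniq⟩ := hS.2 _ h5
    have hnone : none ∈ O := hsO Finset.none_mem_insertNone
    have hOe : Finset.insertNone O.eraseNone = O := by
      rw [Finset.insertNone_eraseNone, Finset.insert_eq_of_mem hnone]
    refine ⟨O.eraseNone, ⟨?_, ?_⟩, ?_⟩
    · show Finset.insertNone O.eraseNone ∈ Cfsg.octads
      rw [hOe]
      exact hO
    · intro a ha
      rw [Finset.mem_eraseNone]
      exact hsO (Finset.some_mem_insertNone.2 ha)
    · rintro c' ⟨hc', hsc'⟩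
      have hsub : Finset.insertNone s ⊆ Finset.insertNone c' := by
        intro x hx
        rcases x with _ | a
        · exact Finset.none_mem_insertNone
        · exact Finset.some_mem_insertNone.2 (hsc' (Finset.some_mem_insertNone.1 hx))
      have := huniq (Finset.insertNone c') ⟨hc', hsub⟩
      rw [← this, Finset.eraseNone_insertNone]

theorem codeExt_M23sys : codeExt M23sys = Cfsg.golayCode := by
  have hg := isGol_codeExt (by simp [ZMod.card] : Fintype.card (ZMod 23) = 23) steiner_M23sys
  apply Submodule.eq_of_le_of_finrank_eq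
  · unfold codeExt
    rw [Submodule.span_le]
    rintro _ ⟨c, hc, rfl⟩
    obtain ⟨⟨w, hw, hwc⟩, -⟩ := hc
    have : ind (Finset.insertNone c) = w := by
      rw [← hwc]
      exact ind_supp w
    show ind (Finset.insertNone c) ∈ Cfsg.golayCode
    rw [this]
    exact hw
  · rw [hg.dim, Cfsg.Agent.S0358.result]

theorem ext_aut {σ : Equiv.Perm (ZMod 23)} (hσ : σ ∈ Cfsg.setSystemAut M23sys) :
    σ.optionCongr ∈ Cfsg.setSystemAut Cfsg.octads := by
  set τ : Equiv.Perm Cfsg.GolayPt := σ.optionCongr with hτ
  have hgen : ∀ c ∈ M23sys,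
      (ind (Finset.insertNone c) : Cfsg.GolayPt → ZMod 2) ∘ τ.symm ∈ Cfsg.golayCode := by
    intro c hc
    rw [ind_comp, Finset.map_eq_image]
    have h1 := image_insertNone τ rfl c
    have h2 : ((τ.toEmbedding : Cfsg.GolayPt ↪ Cfsg.GolayPt) : Cfsg.GolayPt → Cfsg.GolayPt) = τ :=
      rfl
    rw [h2, h1, hτ, Equiv.removeNone_optionCongr, ← codeExt_M23sys]
    exact Submodule.subset_span ⟨c.image σ, aut_image hσ hc, rfl⟩
  have hpres : ∀ w ∈ Cfsg.golayCode, w ∘ τ.symm ∈ Cfsg.golayCode := by
    intro w hw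
    rw [← codeExt_M23sys] at hw
    unfold codeExt at hw
    induction hw using Submodule.span_induction with
    | mem x hx =>
      obtain ⟨c, hc, rfl⟩ := hx
      exact hgen c hc
    | zero => exact Submodule.zero_mem _
    | add x y _ _ hx hy => exact Submodule.add_mem _ hx hy
    | smul a x _ hx => exact Submodule.smul_mem _ a hx
  apply mem_aut
  intro O hO
  obtain ⟨⟨w, hw, hwO⟩, hcard⟩ := hO
  refine ⟨⟨w ∘ τ.symm, hpres w hw, ?_⟩, ?_⟩
  · have : w ∘ τ.symm = ind (O.image τ) := by
      rw [← hwO]
      have h1 := ind_comp τ (supp w)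
      rw [ind_supp, Finset.map_eq_image] at h1
      exact h1
    rw [this]
    exact supp_ind _
  · show (O.image τ).card = 8
    rw [Finset.card_image_of_injective _ τ.injective]
    exact hcard

theorem restrict_aut {τ : Equiv.Perm Cfsg.GolayPt} (hτ : τ ∈ Cfsg.setSystemAut Cfsg.octads)
    (h0 : τ none = none) : τ.removeNone ∈ Cfsg.setSystemAut M23sys := by
  apply mem_aut
  intro c hc
  show Finset.insertNone (c.image τ.removeNone) ∈ Cfsg.octads
  rw [← image_insertNone τ h0 c]
  exact aut_image hτ hc

theorem optionCongr_removeNone {α : Type*} (τ : Equiv.Perm (Option α)) (h0 : τ none = none) :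
    τ.removeNone.optionCongr = τ := by
  apply Equiv.ext
  intro x
  rcases x with _ | a
  · rw [h0]
    rfl
  · have hne : τ (some a) ≠ none := by
      intro h
      rw [← h0] at h
      exact Option.some_ne_none a (τ.injective h)
    obtain ⟨x', hx'⟩ := Option.ne_none_iff_exists'.1 hne
    rw [← Equiv.removeNone_some τ ⟨x', hx'⟩]
    rfl

/-- the automorphism group of the model system is the point stabiliser in M24 -/
noncomputable def autM23 :
    Cfsg.setSystemAut M23sys ≃* MulAction.stabilizer Cfsg.M24 (none : Cfsg.GolayPt) where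
  toFun σ := ⟨⟨σ.1.optionCongr, by
      rw [Cfsg.Agent.S0369.result]
      exact ext_aut σ.2⟩, by
    rw [MulAction.mem_stabilizer_iff]
    rfl⟩
  invFun τ := ⟨τ.1.1.removeNone, restrict_aut (by
    rw [← Cfsg.Agent.S0369.result]
    exact τ.1.2) (MulAction.mem_stabilizer_iff.1 τ.2)⟩
  left_inv σ := by
    apply Subtype.ext
    exact Equiv.removeNone_optionCongr σ.1
  right_inv τ := by
    apply Subtype.ext
    apply Subtype.ext
    exact optionCongr_removeNone τ.1.1 (MulAction.mem_stabilizer_iff.1 τ.2)
  map_mul' σ σ' := by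
    apply Subtype.ext
    apply Subtype.ext
    apply Equiv.ext
    intro x
    cases x <;> rfl

theorem four_trans_M23sys (x y : Fin 4 ↪ ZMod 23) :
    ∃ g ∈ Cfsg.setSystemAut M23sys, ∀ i, g (x i) = y i := by
  have hinj : ∀ z : Fin 4 ↪ ZMod 23, Function.Injective
      (Fin.cons (none : Cfsg.GolayPt) (fun i => (some (z i) : Cfsg.GolayPt)) :
        Fin 5 → Cfsg.GolayPt) := by
    intro z
    rw [Fin.cons_injective_iff]
    refine ⟨?_, ?_⟩
    · rintro ⟨i, hi⟩
      exact Option.some_ne_none _ hi
    · intro i j h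
      exact z.injective (Option.some_injective _ h)
  obtain ⟨g, hg⟩ := (MulAction.isMultiplyPretransitive_iff).1 Cfsg.Agent.S0366.result
    ⟨_, hinj x⟩ ⟨_, hinj y⟩
  have h0 : g.1 none = none := DFunLike.congr_fun hg 0
  have hi : ∀ i : Fin 4, g.1 (some (x i)) = some (y i) := fun i => DFunLike.congr_fun hg i.succ
  refine ⟨g.1.removeNone, restrict_aut (by
    rw [← Cfsg.Agent.S0369.result]
    exact g.2) h0, ?_⟩
  intro i
  apply Option.some_injective
  rw [Equiv.removeNone_some g.1 ⟨_, hi i⟩, hi i]

end Cfsg.Agent.Helper29.GU
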